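import Mathlib
import Cfsg.Agent.Lib.Helper35.JR.Defs

/-!
# JR (S3206), package [MULT]: a perfect central 2-extension of a group whose Sylow 2-subgroups
are `E₈` with `N(S)` transitive on the involutions of `S` is trivial.
-/

set_option autoImplicit false
set_option maxHeartbeats 1000000

namespace Cfsg.Agent.Lib.Helper47.JR

open Cfsg Cfsg.Agent.Lib.Helper35.JR

open scoped commutatorElement

universe u

theorem units_mul_eq_one {a b : ℂˣ} (ha : a ^ 2 = 1) (hb : b ^ 2 = 1) (ha1 : a ≠ 1)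
    (hb1 : b ≠ 1) : a * b = 1 := by
  have key : ∀ c : ℂˣ, c ^ 2 = 1 → c ≠ 1 → c = -1 := by
    intro c hc hc1
    have h1 : ((c : ℂ)) ^ 2 = 1 := by
      have h0 := congrArg Units.val hc
      simpa using h0
    have h2 : ((c : ℂ) - 1) * ((c : ℂ) + 1) = 0 := by linear_combination h1
    rcases mul_eq_zero.1 h2 with h | h
    · exact absurd (Units.ext (by simpa [sub_eq_zero] using h)) hc1
    · apply Units.ext
      simp only [Units.val_neg, Units.val_one]
      linear_combination h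
  rw [key a ha ha1, key b hb hb1]
  simp

theorem comm_mul_left {L : Type*} [Group L] (x x' y : L) (h : ⁅x', y⁆ ∈ Subgroup.center L) :
    ⁅x * x', y⁆ = ⁅x, y⁆ * ⁅x', y⁆ := by
  rw [Subgroup.mem_center_iff] at h
  have h1 : ⁅x * x', y⁆ = x * ⁅x', y⁆ * x⁻¹ * ⁅x, y⁆ := by
    simp only [commutatorElement_def]; group
  rw [h1, h x, mul_inv_cancel_right]
  exact (h _).symm

theorem comm_mul_right {L : Type*} [Group L] (x y y' : L) (h : ⁅x, y'⁆ ∈ Subgroup.center L) :
    ⁅x, y * y'⁆ = ⁅x, y⁆ * ⁅x, y'⁆ := by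
  rw [Subgroup.mem_center_iff] at h
  have h1 : ⁅x, y * y'⁆ = ⁅x, y⁆ * (y * ⁅x, y'⁆ * y⁻¹) := by
    simp only [commutatorElement_def]; group
  rw [h1, h y, mul_inv_cancel_right]

/-- An alternating bimultiplicative `±1`-valued form on an elementary abelian group of order 8
has a nontrivial radical. -/
theorem exists_radical {G : Type u} [Group G] (S : Subgroup G) [Finite S]
    (hcard : Nat.card S = 8) (hexp : ∀ x ∈ S, x ^ 2 = 1) (b : G → G → ℂˣ)
    (hl : ∀ s ∈ S, ∀ s' ∈ S, ∀ w ∈ S, b (s * s') w = b s w * b s' w)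
    (hr : ∀ s ∈ S, ∀ w ∈ S, ∀ w' ∈ S, b s (w * w') = b s w * b s w')
    (hself : ∀ s, b s s = 1) (hsq : ∀ s ∈ S, ∀ w ∈ S, b s w ^ 2 = 1)
    (hsymm : ∀ s ∈ S, ∀ w ∈ S, b s w = 1 → b w s = 1)
    (s : G) (hs : s ∈ S) (hs1 : s ≠ 1) :
    ∃ p ∈ S, p ≠ 1 ∧ ∀ v ∈ S, b p v = 1 := by
  classical
  have hmm : ∀ v ∈ S, v * v = 1 := fun v hv => by rw [← sq]; exact hexp v hv
  have hinv : ∀ v ∈ S, v⁻¹ = v := fun v hv => inv_eq_of_mul_eq_one_left (hmm v hv)
  have hb1 : ∀ p ∈ S, b p 1 = 1 := by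
    intro p hp
    have h := hr p hp 1 (one_mem S) 1 (one_mem S)
    rw [mul_one] at h
    exact (mul_eq_left.1 h.symm)
  have hout : ∀ F : Finset G, F.card < 8 → ∃ e ∈ S, e ∉ F := by
    intro F hF
    have h1 : (↑F : Set G).ncard < (S : Set G).ncard := by
      rw [Set.ncard_coe_finset]
      have : (S : Set G).ncard = Nat.card S := (Nat.card_coe_set_eq (S : Set G)).symm
      rw [this, hcard]
      exact hF
    obtain ⟨e, he, he'⟩ := Set.exists_mem_notMem_of_ncard_lt_ncard h1 F.finite_toSet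
    exact ⟨e, he, by simpa using he'⟩
  -- (1) a second element orthogonal to `s`
  obtain ⟨w, hwS, hw1, hws, hbw⟩ : ∃ w ∈ S, w ≠ 1 ∧ w ≠ s ∧ b s w = 1 := by
    obtain ⟨u₁, hu₁S, hu₁⟩ := hout {1, s} (lt_of_le_of_lt Finset.card_le_two (by norm_num))
    obtain ⟨u₂, hu₂S, hu₂⟩ := hout {1, s, u₁, s * u₁}
      (lt_of_le_of_lt Finset.card_le_four (by norm_num))
    simp only [Finset.mem_insert, Finset.mem_singleton, not_or] at hu₁ hu₂
    by_cases h1 : b s u₁ = 1
    · exact ⟨u₁, hu₁S, hu₁.1, hu₁.2, h1⟩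
    by_cases h2 : b s u₂ = 1
    · exact ⟨u₂, hu₂S, hu₂.1, hu₂.2.1, h2⟩
    refine ⟨u₁ * u₂, mul_mem hu₁S hu₂S, ?_, ?_, ?_⟩
    · intro h
      have : u₂ = u₁ := by
        have h3 := eq_inv_of_mul_eq_one_right h
        rw [hinv u₁ hu₁S] at h3
        exact h3
      exact hu₂.2.2.1 this
    · intro h
      have : u₂ = s * u₁ := by
        have h3 : u₂ = u₁⁻¹ * s := by rw [← h]; group
        rw [hinv u₁ hu₁S] at h3
        rw [h3]
        have h4 := hmm (u₁ * s) (mul_mem hu₁S hs)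
        have h5 := hinv (u₁ * s) (mul_mem hu₁S hs)
        rw [mul_inv_rev, hinv u₁ hu₁S, hinv s hs] at h5
        exact h5.symm
      exact hu₂.2.2.2 this
    · rw [hr s hs u₁ hu₁S u₂ hu₂S]
      exact units_mul_eq_one (hsq s hs u₁ hu₁S) (hsq s hs u₂ hu₂S) h1 h2
  have hsw1 : s * w ≠ 1 := by
    intro h
    have h3 := eq_inv_of_mul_eq_one_right h
    rw [hinv s hs] at h3
    exact hws h3
  -- (2) a point outside the plane
  obtain ⟨u, huS, hu⟩ := hout {1, s, w, s * w} (lt_of_le_of_lt Finset.card_le_four (by norm_num))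
  -- (3) an element of the plane orthogonal to `u`
  obtain ⟨p, hpS, hp1, hps, hpw, hpu⟩ :
      ∃ p ∈ S, p ≠ 1 ∧ b p s = 1 ∧ b p w = 1 ∧ b p u = 1 := by
    by_cases h1 : b s u = 1
    · exact ⟨s, hs, hs1, hself s, hbw, h1⟩
    by_cases h2 : b w u = 1
    · exact ⟨w, hwS, hw1, hsymm s hs w hwS hbw, hself w, h2⟩
    refine ⟨s * w, mul_mem hs hwS, hsw1, ?_, ?_, ?_⟩
    · rw [hl s hs w hwS s hs, hself, hsymm s hs w hwS hbw, mul_one]
    · rw [hl s hs w hwS w hwS, hbw, hself, mul_one]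
    · rw [hl s hs w hwS u huS]
      exact units_mul_eq_one (hsq s hs u huS) (hsq w hwS u huS) h1 h2
  -- (4) the kernel of `b p` is everything
  let K : Subgroup G :=
    { carrier := {v | v ∈ S ∧ b p v = 1}
      mul_mem' := by
        rintro a c ⟨ha, hab⟩ ⟨hc, hcb⟩
        exact ⟨mul_mem ha hc, by rw [hr p hpS a ha c hc, hab, hcb, mul_one]⟩
      one_mem' := ⟨one_mem S, hb1 p hpS⟩
      inv_mem' := by
        rintro a ⟨ha, hab⟩
        refine ⟨inv_mem ha, ?_⟩
        rw [hinv a ha]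
        exact hab }
  have hKS : K ≤ S := fun v hv => hv.1
  have : Finite K := Finite.of_injective (Subgroup.inclusion hKS) (Subgroup.inclusion_injective hKS)
  have hF5 : (({u, 1, s, w, s * w} : Finset G) : Set G) ⊆ (K : Set G) := by
    intro v hv
    simp only [Finset.coe_insert, Finset.coe_singleton, Set.mem_insert_iff,
      Set.mem_singleton_iff] at hv
    rcases hv with rfl | rfl | rfl | rfl | rfl
    · exact ⟨huS, hpu⟩
    · exact ⟨one_mem S, hb1 p hpS⟩
    · exact ⟨hs, hps⟩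
    · exact ⟨hwS, hpw⟩
    · exact ⟨mul_mem hs hwS, by rw [hr p hpS s hs w hwS, hps, hpw, mul_one]⟩
  have hc5 : ({u, 1, s, w, s * w} : Finset G).card = 5 := by
    have e1 : w ∉ ({s * w} : Finset G) := by
      rw [Finset.mem_singleton]
      intro h
      exact hs1 (mul_eq_right.1 h.symm)
    have e2 : s ∉ ({w, s * w} : Finset G) := by
      simp only [Finset.mem_insert, Finset.mem_singleton, not_or]
      refine ⟨fun h => hws h.symm, fun h => hw1 (mul_eq_left.1 h.symm)⟩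
    have e3 : (1 : G) ∉ ({s, w, s * w} : Finset G) := by
      simp only [Finset.mem_insert, Finset.mem_singleton, not_or]
      exact ⟨fun h => hs1 h.symm, fun h => hw1 h.symm, fun h => hsw1 h.symm⟩
    rw [Finset.card_insert_of_notMem hu, Finset.card_insert_of_notMem e3,
      Finset.card_insert_of_notMem e2, Finset.card_insert_of_notMem e1, Finset.card_singleton]
  have hK5 : 5 ≤ Nat.card K := by
    have h1 := Set.ncard_le_ncard hF5 (Set.toFinite _)
    rw [Set.ncard_coe_finset, hc5] at h1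
    have : (K : Set G).ncard = Nat.card K := (Nat.card_coe_set_eq (K : Set G)).symm
    rw [this] at h1
    exact h1
  have hdvd : Nat.card K ∣ Nat.card S := Subgroup.card_dvd_of_le hKS
  have hK8 : Nat.card S = Nat.card K := by
    rw [hcard] at hdvd ⊢
    exact Nat.eq_of_dvd_of_lt_two_mul (by norm_num) hdvd (by omega)
  have hKeq : K = S := Subgroup.eq_of_le_of_card_ge hKS hK8.le
  refine ⟨p, hpS, hp1, fun v hv => ?_⟩
  have : v ∈ K := by rw [hKeq]; exact hv
  exact this.2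

theorem pkgMult : PkgMult.{u} := by
  intro G _ _ hS8 hFus L _ _ Z _ hperf hZc hZ2 ⟨e⟩
  classical
  let π : L →* G := e.toMonoidHom.comp (QuotientGroup.mk' Z)
  have hπsurj : Function.Surjective π := e.surjective.comp (QuotientGroup.mk'_surjective Z)
  have hπker : ∀ x, π x = 1 ↔ x ∈ Z := by
    intro x
    show e (QuotientGroup.mk x) = 1 ↔ _
    rw [MulEquiv.map_eq_one_iff, QuotientGroup.eq_one_iff]
  let S₀ : Sylow 2 G := default
  obtain ⟨hcard, hexp⟩ := hS8 S₀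
  have hsq : ∀ v ∈ (S₀ : Subgroup G), v * v = 1 := fun v hv => by rw [← sq]; exact hexp v hv
  have hinv : ∀ v ∈ (S₀ : Subgroup G), v⁻¹ = v := fun v hv =>
    inv_eq_of_mul_eq_one_left (hsq v hv)
  have hcomm : ∀ v ∈ (S₀ : Subgroup G), ∀ v' ∈ (S₀ : Subgroup G), v * v' = v' * v := by
    intro v hv v' hv'
    have h2 : v * v' = (v * v')⁻¹ := (hinv _ (mul_mem hv hv')).symm
    rw [h2, mul_inv_rev, hinv v hv, hinv v' hv']
  set H : Subgroup L := (S₀ : Subgroup G).comap π with hH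
  have hmemH : ∀ x, x ∈ H ↔ π x ∈ (S₀ : Subgroup G) := fun x => Iff.rfl
  have hZH : Z ≤ H := fun z hz => by
    rw [hmemH, (hπker z).2 hz]
    exact one_mem _
  have hcZ : ∀ x ∈ H, ∀ y ∈ H, ⁅x, y⁆ ∈ Z := by
    intro x hx y hy
    rw [← hπker, map_commutatorElement, commutatorElement_eq_one_iff_mul_comm]
    exact hcomm _ hx _ hy
  have hcC : ∀ x ∈ H, ∀ y ∈ H, ⁅x, y⁆ ∈ Subgroup.center L := fun x hx y hy =>
    hZc (hcZ x hx y hy)
  have hab : ∀ x ∈ H, ∀ y ∈ H, x * y = y * x := by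
    by_contra hne
    push Not at hne
    obtain ⟨x₀, hx₀, y₀, hy₀, hxy⟩ := hne
    have hz₀ : (⟨⁅x₀, y₀⁆, hcC x₀ hx₀ y₀ hy₀⟩ : Subgroup.center L) ≠ 1 := by
      intro h
      have h' := congrArg Subtype.val h
      simp only [Subgroup.coe_one] at h'
      exact hxy (commutatorElement_eq_one_iff_mul_comm.1 h')
    letI : CommGroup ↥(Subgroup.center L) :=
      { (inferInstance : Group ↥(Subgroup.center L)) with
        mul_comm := fun a c => Subtype.ext (Subgroup.mem_center_iff.1 c.2 a) }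
    haveI : NeZero (Monoid.exponent ↥(Subgroup.center L)) := ⟨Monoid.exponent_ne_zero_of_finite⟩
    obtain ⟨χ, hχ⟩ :=
      CommGroup.exists_apply_ne_one_of_hasEnoughRootsOfUnity ↥(Subgroup.center L) ℂ hz₀
    let f : L → ℂˣ := fun w => if h : w ∈ Subgroup.center L then χ ⟨w, h⟩ else 1
    have hf_mul : ∀ w ∈ Subgroup.center L, ∀ w' ∈ Subgroup.center L,
        f (w * w') = f w * f w' := by
      intro w hw w' hw'
      simp only [f, dif_pos hw, dif_pos hw', dif_pos (mul_mem hw hw')]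
      rw [← map_mul]
      rfl
    have hf_one : f 1 = 1 := by
      simp only [f, dif_pos (one_mem (Subgroup.center L))]
      exact map_one χ
    let B : L → L → ℂˣ := fun x y => f ⁅x, y⁆
    have hBdef : ∀ x y, B x y = f ⁅x, y⁆ := fun _ _ => rfl
    have hB_mul_left : ∀ x ∈ H, ∀ x' ∈ H, ∀ y ∈ H, B (x * x') y = B x y * B x' y := by
      intro x hx x' hx' y hy
      rw [hBdef, hBdef, hBdef, comm_mul_left x x' y (hcC x' hx' y hy),
        hf_mul _ (hcC x hx y hy) _ (hcC x' hx' y hy)]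
    have hB_mul_right : ∀ x ∈ H, ∀ y ∈ H, ∀ y' ∈ H, B x (y * y') = B x y * B x y' := by
      intro x hx y hy y' hy'
      rw [hBdef, hBdef, hBdef, comm_mul_right x y y' (hcC x hx y' hy'),
        hf_mul _ (hcC x hx y hy) _ (hcC x hx y' hy')]
    have hB_self : ∀ x, B x x = 1 := by
      intro x
      rw [hBdef, commutatorElement_self, hf_one]
    have hB_Z_left : ∀ z ∈ Z, ∀ y, B z y = 1 := by
      intro z hz y
      have h1 : ⁅z, y⁆ = 1 := by
        rw [commutatorElement_eq_one_iff_mul_comm]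
        have h2 := hZc hz
        rw [Subgroup.mem_center_iff] at h2
        exact (h2 y).symm
      rw [hBdef, h1, hf_one]
    have hB_Z_right : ∀ z ∈ Z, ∀ x, B x z = 1 := by
      intro z hz x
      have h1 : ⁅x, z⁆ = 1 := by
        rw [commutatorElement_eq_one_iff_mul_comm]
        have h2 := hZc hz
        rw [Subgroup.mem_center_iff] at h2
        exact h2 x
      rw [hBdef, h1, hf_one]
    have hB_wd : ∀ x ∈ H, ∀ x' ∈ H, ∀ y ∈ H, ∀ y' ∈ H, π x = π x' → π y = π y' →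
        B x' y' = B x y := by
      intro x hx x' hx' y hy y' hy' hxx hyy
      have hz1 : x⁻¹ * x' ∈ Z := by rw [← hπker, map_mul, map_inv, hxx, inv_mul_cancel]
      have hz2 : y⁻¹ * y' ∈ Z := by rw [← hπker, map_mul, map_inv, hyy, inv_mul_cancel]
      have e1 : x' = x * (x⁻¹ * x') := by group
      have e2 : y' = y * (y⁻¹ * y') := by group
      rw [e1, e2, hB_mul_left x hx _ (hZH hz1) _ (mul_mem hy (hZH hz2)), hB_Z_left _ hz1,
        mul_one, hB_mul_right x hx y hy _ (hZH hz2), hB_Z_right _ hz2, mul_one]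
    have hB_sq : ∀ x ∈ H, ∀ y ∈ H, B x y ^ 2 = 1 := by
      intro x hx y hy
      rw [sq, ← hB_mul_left x hx x hx y hy]
      apply hB_Z_left
      rw [← hπker, map_mul]
      exact hsq _ hx
    have hB_symm : ∀ x ∈ H, ∀ y ∈ H, B x y = 1 → B y x = 1 := by
      intro x hx y hy h
      have h1 : f (⁅x, y⁆⁻¹ * ⁅x, y⁆) = f ⁅x, y⁆⁻¹ * f ⁅x, y⁆ :=
        hf_mul _ (inv_mem (hcC x hx y hy)) _ (hcC x hx y hy)
      rw [inv_mul_cancel, hf_one] at h1
      have h' : f ⁅x, y⁆ = 1 := h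
      rw [h', mul_one, commutatorElement_inv] at h1
      rw [hBdef]
      exact h1.symm
    have hB_conj : ∀ a : L, ∀ x ∈ H, ∀ y ∈ H, B (a * x * a⁻¹) (a * y * a⁻¹) = B x y := by
      intro a x hx y hy
      have h1 : ⁅a * x * a⁻¹, a * y * a⁻¹⁆ = a * ⁅x, y⁆ * a⁻¹ := by
        simp only [commutatorElement_def]; group
      have h2 := hcC x hx y hy
      rw [Subgroup.mem_center_iff] at h2
      rw [hBdef, h1, h2 a, mul_inv_cancel_right]
    -- lifts
    choose ℓ hℓ using hπsurj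
    have hℓH : ∀ s ∈ (S₀ : Subgroup G), ℓ s ∈ H := fun s hs => by
      rw [hmemH, hℓ]
      exact hs
    let b : G → G → ℂˣ := fun s w => B (ℓ s) (ℓ w)
    have hbdef : ∀ s w, b s w = B (ℓ s) (ℓ w) := fun _ _ => rfl
    have b_mul_left : ∀ s ∈ (S₀ : Subgroup G), ∀ s' ∈ (S₀ : Subgroup G),
        ∀ w ∈ (S₀ : Subgroup G), b (s * s') w = b s w * b s' w := by
      intro s hs s' hs' w hw
      rw [hbdef, hbdef, hbdef, ← hB_mul_left _ (hℓH s hs) _ (hℓH s' hs') _ (hℓH w hw)]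
      exact hB_wd _ (mul_mem (hℓH s hs) (hℓH s' hs')) _ (hℓH _ (mul_mem hs hs')) _ (hℓH w hw) _
        (hℓH w hw) (by rw [map_mul, hℓ, hℓ, hℓ]) rfl
    have b_mul_right : ∀ s ∈ (S₀ : Subgroup G), ∀ w ∈ (S₀ : Subgroup G),
        ∀ w' ∈ (S₀ : Subgroup G), b s (w * w') = b s w * b s w' := by
      intro s hs w hw w' hw'
      rw [hbdef, hbdef, hbdef, ← hB_mul_right _ (hℓH s hs) _ (hℓH w hw) _ (hℓH w' hw')]
      exact hB_wd _ (hℓH s hs) _ (hℓH s hs) _ (mul_mem (hℓH w hw) (hℓH w' hw')) _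
        (hℓH _ (mul_mem hw hw')) rfl (by rw [map_mul, hℓ, hℓ, hℓ])
    have b_self : ∀ s, b s s = 1 := fun s => hB_self _
    have b_sq : ∀ s ∈ (S₀ : Subgroup G), ∀ w ∈ (S₀ : Subgroup G), b s w ^ 2 = 1 :=
      fun s hs w hw => hB_sq _ (hℓH s hs) _ (hℓH w hw)
    have b_symm : ∀ s ∈ (S₀ : Subgroup G), ∀ w ∈ (S₀ : Subgroup G), b s w = 1 → b w s = 1 :=
      fun s hs w hw h => hB_symm _ (hℓH s hs) _ (hℓH w hw) h
    have b_conj : ∀ n ∈ Subgroup.normalizer ((S₀ : Subgroup G) : Set G),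
        ∀ s ∈ (S₀ : Subgroup G), ∀ w ∈ (S₀ : Subgroup G),
        b (n * s * n⁻¹) (n * w * n⁻¹) = b s w := by
      intro n hn s hs w hw
      have hns : n * s * n⁻¹ ∈ (S₀ : Subgroup G) := (Subgroup.mem_normalizer_iff.1 hn s).1 hs
      have hnw : n * w * n⁻¹ ∈ (S₀ : Subgroup G) := (Subgroup.mem_normalizer_iff.1 hn w).1 hw
      have h1 : ℓ n * ℓ s * (ℓ n)⁻¹ ∈ H := by
        rw [hmemH, map_mul, map_mul, map_inv, hℓ, hℓ]; exact hns
      have h2 : ℓ n * ℓ w * (ℓ n)⁻¹ ∈ H := by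
        rw [hmemH, map_mul, map_mul, map_inv, hℓ, hℓ]; exact hnw
      rw [hbdef, hbdef, ← hB_conj (ℓ n) _ (hℓH s hs) _ (hℓH w hw)]
      exact hB_wd _ h1 _ (hℓH _ hns) _ h2 _ (hℓH _ hnw)
        (by rw [map_mul, map_mul, map_inv, hℓ, hℓ, hℓ])
        (by rw [map_mul, map_mul, map_inv, hℓ, hℓ, hℓ])
    -- the contradiction
    have hs₀ : π x₀ ∈ (S₀ : Subgroup G) := hx₀
    have hw₀ : π y₀ ∈ (S₀ : Subgroup G) := hy₀
    have hne1 : b (π x₀) (π y₀) ≠ 1 := by
      rw [hbdef, hB_wd x₀ hx₀ _ (hℓH _ hs₀) y₀ hy₀ _ (hℓH _ hw₀) (hℓ _).symm (hℓ _).symm, hBdef]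
      simp only [f, dif_pos (hcC x₀ hx₀ y₀ hy₀)]
      exact hχ
    have hb_one_left : ∀ w ∈ (S₀ : Subgroup G), b 1 w = 1 := by
      intro w hw
      have h := b_mul_left 1 (one_mem _) 1 (one_mem _) w hw
      rw [mul_one] at h
      exact mul_eq_left.1 h.symm
    have hs₀1 : π x₀ ≠ 1 := by
      intro h
      rw [h] at hne1
      exact hne1 (hb_one_left _ hw₀)
    obtain ⟨p, hpS, hp1, hprad⟩ := exists_radical (S₀ : Subgroup G) hcard hexp b b_mul_left
      b_mul_right b_self b_sq b_symm (π x₀) hs₀ hs₀1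
    obtain ⟨n, hn, hnp⟩ := hFus S₀ p hpS hp1 (π x₀) hs₀ hs₀1
    have hn' : n⁻¹ * π y₀ * n ∈ (S₀ : Subgroup G) := by
      have := (Subgroup.mem_normalizer_iff.1 (inv_mem hn) (π y₀)).1 hw₀
      rwa [inv_inv] at this
    have h3 := b_conj n hn p hpS _ hn'
    rw [hnp, hprad _ hn'] at h3
    have h4 : n * (n⁻¹ * π y₀ * n) * n⁻¹ = π y₀ := by group
    rw [h4] at h3
    exact hne1 h3
  -- transfer
  have hHidx : H.index = (S₀ : Subgroup G).index := Subgroup.index_comap_of_surjective _ hπsurj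
  have hodd : ¬ 2 ∣ H.index := by
    rw [hHidx]
    haveI : Fact (Nat.Prime 2) := ⟨Nat.prime_two⟩
    exact S₀.not_dvd_index
  letI : CommGroup H :=
    { (inferInstance : Group H) with
      mul_comm := fun a c => Subtype.ext (hab a a.2 c c.2) }
  rw [Subgroup.eq_bot_iff_forall]
  intro z hz
  have hzc : z ∈ Subgroup.center L := hZc hz
  have key : ∀ (k : ℕ) (g₀ : L), g₀⁻¹ * z ^ k * g₀ ∈ H → g₀⁻¹ * z ^ k * g₀ = z ^ k := by
    intro k g₀ _
    have h1 : z ^ k ∈ Subgroup.center L := Subgroup.pow_mem _ hzc k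
    rw [Subgroup.mem_center_iff] at h1
    rw [mul_assoc, ← h1 g₀, inv_mul_cancel_left]
  have h1 := MonoidHom.transfer_eq_pow (MonoidHom.id H) z key
  have h2 : MonoidHom.transfer (MonoidHom.id H) z = 1 := by
    have h3 : commutator L ≤ (MonoidHom.transfer (MonoidHom.id H)).ker :=
      Abelianization.commutator_subset_ker _
    rw [hperf] at h3
    exact h3 (Subgroup.mem_top z)
  rw [h2] at h1
  have h3 : z ^ H.index = 1 := by
    have h4 := congrArg Subtype.val h1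
    simpa using h4.symm
  obtain ⟨k, hk⟩ := hZ2 ⟨z, hz⟩
  have h4 : z ^ 2 ^ k = 1 := by
    have h5 := congrArg Subtype.val hk
    simpa using h5
  have hcop : Nat.Coprime (2 ^ k) H.index :=
    Nat.Coprime.pow_left k ((Nat.Prime.coprime_iff_not_dvd Nat.prime_two).2 hodd)
  have h5 := Nat.dvd_gcd (orderOf_dvd_of_pow_eq_one h4) (orderOf_dvd_of_pow_eq_one h3)
  rw [hcop.gcd_eq_one, Nat.dvd_one] at h5
  exact orderOf_eq_one_iff.1 h5

end Cfsg.Agent.Lib.Helper47.JR
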